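import Mathlib
import Cfsg.Agent.Helper9.OrdTools

/-!
# A tool for S0984 (order 2520): an element of order 7 normalizes no subgroup of order 9
when the Sylow 7-subgroups are self-centralizing.
-/

set_option autoImplicit false

universe u

namespace Cfsg.Agent.Helper27

open Cfsg.Agent.Helper9

/-- if the Sylow 7-subgroups of a group of order 2520 are self-centralizing, no element of
order 7 normalizes a subgroup of order 9. -/
theorem a7z_no_norm9 {G : Type u} [Group G] [Finite G]
    (hG : Nat.card G = 2520)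
    (hC7 : ∀ P : Sylow 7 G, Nat.card (Subgroup.centralizer ((P : Subgroup G) : Set G)) = 7)
    (z : G) (hz : orderOf z = 7) (R : Subgroup G) (hR : Nat.card R = 9)
    (hnorm : ∀ y ∈ R, z * y * z⁻¹ ∈ R) : False := by
  classical
  haveI : Fact (Nat.Prime 7) := ⟨by norm_num⟩
  have hpowk : ∀ k : ℕ, ∀ y ∈ R, z ^ k * y * (z ^ k)⁻¹ ∈ R := by
    intro k
    induction k with
    | zero => intro y hy; simpa using hy
    | succ k ih =>
      intro y hy
      have h1 := hnorm _ (ih y hy)
      have h2 : z ^ (k + 1) * y * (z ^ (k + 1))⁻¹ = z * (z ^ k * y * (z ^ k)⁻¹) * z⁻¹ := by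
        rw [pow_succ']
        group
      rw [h2]
      exact h1
  have hpow : ∀ s ∈ Subgroup.zpowers z, ∀ y ∈ R, s * y * s⁻¹ ∈ R := by
    intro s hs y hy
    have h1 : s ∈ Submonoid.powers z := mem_powers_iff_mem_zpowers.mpr hs
    obtain ⟨k, rfl⟩ := h1
    exact hpowk k y hy
  letI : MulAction ↥(Subgroup.zpowers z) ↥R :=
    { smul := fun s y => ⟨(s : G) * y * (s : G)⁻¹, hpow s s.2 y y.2⟩
      one_smul := fun y => by
        apply Subtype.ext
        show ((1 : ↥(Subgroup.zpowers z)) : G) * (y : G) *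
          ((1 : ↥(Subgroup.zpowers z)) : G)⁻¹ = y
        simp
      mul_smul := fun s t y => by
        apply Subtype.ext
        show ((s * t : ↥(Subgroup.zpowers z)) : G) * (y : G) *
          ((s * t : ↥(Subgroup.zpowers z)) : G)⁻¹ =
          (s : G) * ((t : G) * (y : G) * (t : G)⁻¹) * (s : G)⁻¹
        simp [mul_assoc] }
  have hsmul : ∀ (s : ↥(Subgroup.zpowers z)) (y : ↥R),
      ((s • y : ↥R) : G) = (s : G) * (y : G) * (s : G)⁻¹ := fun _ _ => rfl
  have hZp : IsPGroup 7 ↥(Subgroup.zpowers z) :=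
    IsPGroup.of_card (n := 1) (by rw [Nat.card_zpowers, hz, pow_one])
  have hmod := hZp.card_modEq_card_fixedPoints ↥R
  rw [hR] at hmod
  have hgt : 1 < Nat.card (MulAction.fixedPoints ↥(Subgroup.zpowers z) ↥R) := by
    have h1 : Nat.card (MulAction.fixedPoints ↥(Subgroup.zpowers z) ↥R) % 7 = 2 := by
      have h2 := hmod
      unfold Nat.ModEq at h2
      omega
    omega
  haveI : Nontrivial (MulAction.fixedPoints ↥(Subgroup.zpowers z) ↥R) :=
    Finite.one_lt_card_iff_nontrivial.mp hgt
  have h1fix : (1 : ↥R) ∈ MulAction.fixedPoints ↥(Subgroup.zpowers z) ↥R := by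
    intro s
    apply Subtype.ext
    rw [hsmul]
    simp
  obtain ⟨⟨y, hyfix⟩, hyne⟩ :=
    exists_ne (⟨1, h1fix⟩ : MulAction.fixedPoints ↥(Subgroup.zpowers z) ↥R)
  have hy1 : (y : G) ≠ 1 := by
    intro h
    apply hyne
    apply Subtype.ext
    apply Subtype.ext
    exact h
  have hzy : z * (y : G) * z⁻¹ = y := by
    have h1 := congrArg (Subtype.val : ↥R → G) (hyfix ⟨z, Subgroup.mem_zpowers z⟩)
    rw [hsmul] at h1
    exact h1
  have hS : ∀ P : Sylow 7 G, Nat.card (P : Subgroup G) = 7 := fun P => by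
    have h := OrdTools.sylow_card (G := G) (p := 7) 1 360 (by rw [hG]; norm_num) (by norm_num) P
    rw [h, pow_one]
  obtain ⟨P, hP⟩ := OrdTools.exists_sylow_of_orderOf hS hz
  have hyC : (y : G) ∈ Subgroup.centralizer ((P : Subgroup G) : Set G) := by
    rw [← OrdTools.centralizer_singleton_eq hP]
    refine Subgroup.mem_centralizer_iff.mpr (fun w hw => ?_)
    rw [Set.mem_singleton_iff] at hw
    rw [hw]
    calc z * (y : G) = (z * (y : G) * z⁻¹) * z := by group
      _ = (y : G) * z := by rw [hzy]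
  have h7 : (y : G) ^ 7 = 1 := by
    have h1 : (⟨(y : G), hyC⟩ : ↥(Subgroup.centralizer ((P : Subgroup G) : Set G))) ^
        Nat.card ↥(Subgroup.centralizer ((P : Subgroup G) : Set G)) = 1 := pow_card_eq_one'
    rw [hC7 P] at h1
    have h2 := congrArg (Subtype.val :
      ↥(Subgroup.centralizer ((P : Subgroup G) : Set G)) → G) h1
    simpa using h2
  have h9 : (y : G) ^ 9 = 1 := by
    have h1 : y ^ Nat.card ↥R = 1 := pow_card_eq_one'
    rw [hR] at h1
    have h2 := congrArg (Subtype.val : ↥R → G) h1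
    simpa using h2
  apply hy1
  have h36 : (y : G) ^ 36 = 1 := by rw [show 36 = 9 * 4 from rfl, pow_mul, h9, one_pow]
  have h35 : (y : G) ^ 35 = 1 := by rw [show 35 = 7 * 5 from rfl, pow_mul, h7, one_pow]
  have h3 : (y : G) ^ 36 = (y : G) ^ 35 * (y : G) := pow_succ _ 35
  rw [h36, h35, one_mul] at h3
  exact h3.symm

end Cfsg.Agent.Helper27
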