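import Mathlib
import Cfsg.Agent.Helper9.OrdTools
import Cfsg.Agent.Helper27.A7Z

/-!
# Piece N3 of S0984 (helper82's CALL): the number of Sylow 3-subgroups of a simple group of
order 2520 is 7 or 70.
-/

set_option autoImplicit false

universe u

namespace Cfsg.Agent.Helper27

open Cfsg.Agent.Helper9

/-- PIECE N3 -/
theorem a7_n3 {G : Type u} [Group G] [Finite G] [IsSimpleGroup G]
    (hG : Nat.card G = 2520)
    (hC7 : ∀ P : Sylow 7 G, Nat.card (Subgroup.centralizer ((P : Subgroup G) : Set G)) = 7)
    (h28 : Nat.card (Sylow 3 G) ≠ 28) :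
    Nat.card (Sylow 3 G) = 7 ∨ Nat.card (Sylow 3 G) = 70 := by
  classical
  have hdiv : ∀ n ∈ Nat.divisors 280, n % 3 = 1 →
      n = 1 ∨ n = 4 ∨ n = 7 ∨ n = 10 ∨ n = 28 ∨ n = 40 ∨ n = 70 ∨ n = 280 := by
    decide +kernel
  haveI : Fact (Nat.Prime 3) := ⟨by norm_num⟩
  haveI : Fact (Nat.Prime 7) := ⟨by norm_num⟩
  obtain ⟨P⟩ : Nonempty (Sylow 3 G) := inferInstance
  have hP9 : Nat.card (P : Subgroup G) = 9 := by
    have h := OrdTools.sylow_card (G := G) (p := 3) 2 280 (by rw [hG]; norm_num) (by norm_num) P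
    rw [h]
    norm_num
  obtain ⟨hd, hmod, hne1, hN⟩ := OrdTools.sylow_num P (by rw [hP9]; norm_num)
    (by rw [hP9, hG]; norm_num)
  have hidx : (P : Subgroup G).index = 280 := by
    have h1 := Subgroup.card_mul_index (P : Subgroup G)
    rw [hP9, hG] at h1
    omega
  rw [hidx] at hd
  rw [hG] at hN
  have hno7 : ¬ 7 ∣ Nat.card (Subgroup.normalizer ((P : Subgroup G) : Set G)) := by
    intro h7
    obtain ⟨z, hz⟩ := exists_prime_orderOf_dvd_card' 7 h7
    have hz' : orderOf (z : G) = 7 := by rw [Subgroup.orderOf_coe]; exact hz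
    refine a7z_no_norm9 hG hC7 (z : G) hz' (P : Subgroup G) hP9 ?_
    intro y hy
    exact (Subgroup.mem_normalizer_iff.mp z.2 y).mp hy
  have hn := hdiv _ (Nat.mem_divisors.mpr ⟨hd, by norm_num⟩) hmod
  rcases hn with h | h | h | h | h | h | h | h
  · exact absurd h hne1
  · exfalso
    have hidxN : (Subgroup.normalizer ((P : Subgroup G) : Set G)).index = 4 := by
      have h1 := Subgroup.card_mul_index (Subgroup.normalizer ((P : Subgroup G) : Set G))
      rw [hG] at h1
      rw [h] at hN
      have h2 : Nat.card (Subgroup.normalizer ((P : Subgroup G) : Set G)) = 630 := by omega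
      rw [h2] at h1
      omega
    have hne : Subgroup.normalizer ((P : Subgroup G) : Set G) ≠ ⊤ := by
      intro htop
      rw [htop, Subgroup.index_top] at hidxN
      omega
    have h1 := OrdTools.card_dvd_factorial_index _ hne
    rw [hidxN, hG] at h1
    revert h1
    decide
  · left
    exact h
  · exfalso
    apply hno7
    rw [h] at hN
    have h1 : Nat.card (Subgroup.normalizer ((P : Subgroup G) : Set G)) = 252 := by omega
    rw [h1]
    norm_num
  · exact absurd h h28
  · exfalso
    apply hno7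
    rw [h] at hN
    have h1 : Nat.card (Subgroup.normalizer ((P : Subgroup G) : Set G)) = 63 := by omega
    rw [h1]
    norm_num
  · right
    exact h
  · exfalso
    rw [h] at hN
    have hN9 : Nat.card (Subgroup.normalizer ((P : Subgroup G) : Set G)) = 9 := by omega
    have hPN : (P : Subgroup G) = Subgroup.normalizer ((P : Subgroup G) : Set G) :=
      Subgroup.eq_of_le_of_card_ge Subgroup.le_normalizer (by rw [hN9, hP9])
    have hcomm : ∀ a b : ↥(P : Subgroup G), a * b = b * a :=
      IsPGroup.commutative_of_card_eq_prime_sq (p := 3) (by rw [hP9]; norm_num)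
    apply OrdTools.not_normalizer_le_centralizer P (by rw [hP9]; norm_num)
      (by rw [hP9, hG]; norm_num)
    intro n hn
    rw [← hPN] at hn
    refine Subgroup.mem_centralizer_iff.mpr (fun b hb => ?_)
    exact congrArg Subtype.val (hcomm ⟨b, hb⟩ ⟨n, hn⟩)

end Cfsg.Agent.Helper27
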