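import Mathlib
import Cfsg.Agent.Helper9.OrdTools
import Cfsg.Agent.Helper27.A7Z

/-!
# Piece NO252 of S0984 (helper82's CALL): a simple group of order 2520 with self-centralizing
Sylow 7-subgroups whose normalizers have order 21 has no subgroup of order 252.
-/

set_option autoImplicit false

universe u

namespace Cfsg.Agent.Helper27

open Cfsg.Agent.Helper9

/-- a group of order 252 with more than one Sylow 7-subgroup has an element of order 7
normalizing a subgroup of order 9 (Burnside transfer and the Frattini argument). -/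
theorem a7_o252_aux {K : Type u} [Group K] [Finite K] (hK : Nat.card K = 252)
    (hn : Nat.card (Sylow 7 K) ≠ 1) :
    ∃ (z : K) (R : Subgroup K), orderOf z = 7 ∧ Nat.card R = 9 ∧
      ∀ y ∈ R, z * y * z⁻¹ ∈ R := by
  classical
  have hdiv : ∀ n ∈ Nat.divisors 36, n % 7 = 1 → n = 1 ∨ n = 36 := by decide
  haveI : Fact (Nat.Prime 7) := ⟨by norm_num⟩
  haveI : Fact (Nat.Prime 3) := ⟨by norm_num⟩
  obtain ⟨P⟩ : Nonempty (Sylow 7 K) := inferInstance
  have hP7 : Nat.card (P : Subgroup K) = 7 := by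
    have h := OrdTools.sylow_card (G := K) (p := 7) 1 36 (by rw [hK]; norm_num) (by norm_num) P
    rw [h, pow_one]
  have hidx : (P : Subgroup K).index = 36 := by
    have h1 := Subgroup.card_mul_index (P : Subgroup K)
    rw [hP7, hK] at h1
    omega
  have hd : Nat.card (Sylow 7 K) ∣ 36 := by
    have h1 := Sylow.card_dvd_index P
    rwa [hidx] at h1
  have hmod : Nat.card (Sylow 7 K) % 7 = 1 := by
    have h1 := card_sylow_modEq_one 7 K
    unfold Nat.ModEq at h1
    omega
  have hn36 : Nat.card (Sylow 7 K) = 36 := by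
    rcases hdiv _ (Nat.mem_divisors.mpr ⟨hd, by norm_num⟩) hmod with h | h
    · exact absurd h hn
    · exact h
  have hN7 : Nat.card (Subgroup.normalizer ((P : Subgroup K) : Set K)) = 7 := by
    have h1 : Nat.card (Sylow 7 K) =
        (Subgroup.normalizer ((P : Subgroup K) : Set K)).index := Sylow.card_eq_index_normalizer P
    have h2 := Subgroup.card_mul_index (Subgroup.normalizer ((P : Subgroup K) : Set K))
    rw [← h1, hn36, hK] at h2
    omega
  have hPN : (P : Subgroup K) = Subgroup.normalizer ((P : Subgroup K) : Set K) :=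
    Subgroup.eq_of_le_of_card_ge Subgroup.le_normalizer (by rw [hN7, hP7])
  have hNC : Subgroup.normalizer ((P : Subgroup K) : Set K) ≤
      Subgroup.centralizer ((P : Subgroup K) : Set K) := by
    rw [← hPN]
    exact OrdTools.le_centralizer_of_prime P hP7
  have hcompl := MonoidHom.ker_transferSylow_isComplement' P hNC
  obtain ⟨φ, hφ⟩ : ∃ φ : K →* ↥(P : Subgroup K), φ = MonoidHom.transferSylow P hNC := ⟨_, rfl⟩
  rw [← hφ] at hcompl
  have hL36 : Nat.card φ.ker = 36 := by
    have h1 := hcompl.card_mul_card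
    rw [hP7, hK] at h1
    omega
  have hLidx : φ.ker.index = 7 := by
    have h1 := Subgroup.card_mul_index φ.ker
    rw [hL36, hK] at h1
    omega
  obtain ⟨R⟩ : Nonempty (Sylow 3 K) := inferInstance
  have hR9 : Nat.card (R : Subgroup K) = 9 := by
    have h := OrdTools.sylow_card (G := K) (p := 3) 2 28 (by rw [hK]; norm_num) (by norm_num) R
    rw [h]
    norm_num
  have hRL : (R : Subgroup K) ≤ φ.ker := by
    intro y hy
    rw [MonoidHom.mem_ker]
    have h9 : y ^ 9 = 1 := by
      have h1 : (⟨y, hy⟩ : ↥(R : Subgroup K)) ^ Nat.card ↥(R : Subgroup K) = 1 :=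
        pow_card_eq_one'
      rw [hR9] at h1
      have h2 := congrArg (Subtype.val : ↥(R : Subgroup K) → K) h1
      simpa using h2
    have h9' : (φ y) ^ 9 = 1 := by rw [← map_pow, h9, map_one]
    have h7' : (φ y) ^ 7 = 1 := by
      have h1 : (φ y) ^ Nat.card ↥(P : Subgroup K) = 1 := pow_card_eq_one'
      rwa [hP7] at h1
    have h36 : (φ y) ^ 36 = 1 := by rw [show 36 = 9 * 4 from rfl, pow_mul, h9', one_pow]
    have h35 : (φ y) ^ 35 = 1 := by rw [show 35 = 7 * 5 from rfl, pow_mul, h7', one_pow]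
    have h3 : (φ y) ^ 36 = (φ y) ^ 35 * φ y := pow_succ _ 35
    rw [h36, h35, one_mul] at h3
    exact h3.symm
  haveI : φ.ker.Normal := MonoidHom.normal_ker φ
  have hfrat : Subgroup.normalizer ((R : Subgroup K) : Set K) ⊔ φ.ker = ⊤ :=
    Sylow.normalizer_sup_eq_top' R hRL
  have h7N : 7 ∣ Nat.card (Subgroup.normalizer ((R : Subgroup K) : Set K)) := by
    have h1 := Subgroup.relIndex_sup_right
      (H := Subgroup.normalizer ((R : Subgroup K) : Set K)) (K := φ.ker)
    rw [hfrat, Subgroup.relIndex_top_right, hLidx] at h1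
    rw [h1]
    exact Subgroup.relIndex_dvd_card _ _
  obtain ⟨z, hz⟩ := exists_prime_orderOf_dvd_card' 7 h7N
  refine ⟨(z : K), (R : Subgroup K), by rw [Subgroup.orderOf_coe]; exact hz, hR9, ?_⟩
  intro y hy
  exact (Subgroup.mem_normalizer_iff.mp z.2 y).mp hy

/-- PIECE NO252 -/
theorem a7_no_252 {G : Type u} [Group G] [Finite G] [IsSimpleGroup G]
    (hG : Nat.card G = 2520)
    (hC7 : ∀ P : Sylow 7 G, Nat.card (Subgroup.centralizer ((P : Subgroup G) : Set G)) = 7)
    (hN7 : ∀ P : Sylow 7 G, Nat.card (Subgroup.normalizer ((P : Subgroup G) : Set G)) = 21)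
    (H : Subgroup G) : Nat.card H ≠ 252 := by
  classical
  intro hH
  haveI : Fact (Nat.Prime 7) := ⟨by norm_num⟩
  by_cases hn : Nat.card (Sylow 7 ↥H) = 1
  · haveI : Subsingleton (Sylow 7 ↥H) := (Nat.card_eq_one_iff_unique.mp hn).1
    obtain ⟨PH⟩ : Nonempty (Sylow 7 ↥H) := inferInstance
    have hPHn : (PH : Subgroup ↥H).Normal := Sylow.normal_of_subsingleton PH
    have hPH7 : Nat.card (PH : Subgroup ↥H) = 7 := by
      have h := OrdTools.sylow_card (G := ↥H) (p := 7) 1 36 (by rw [hH]; norm_num)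
        (by norm_num) PH
      rw [h, pow_one]
    obtain ⟨Q, hQ⟩ : ∃ Q : Subgroup G, Q = (PH : Subgroup ↥H).map H.subtype := ⟨_, rfl⟩
    have hQ7 : Nat.card Q = 7 := by
      rw [hQ, Subgroup.card_subtype]
      exact hPH7
    have hQp : IsPGroup 7 Q := IsPGroup.of_card (n := 1) (by rw [hQ7, pow_one])
    obtain ⟨P, hP⟩ := hQp.exists_le_sylow
    have hP7 : Nat.card (P : Subgroup G) = 7 := by
      have h := OrdTools.sylow_card (G := G) (p := 7) 1 360 (by rw [hG]; norm_num)
        (by norm_num) P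
      rw [h, pow_one]
    have hQP : Q = (P : Subgroup G) := Subgroup.eq_of_le_of_card_ge hP (by rw [hP7, hQ7])
    have hconj : ∀ h ∈ H, ∀ x ∈ Q, h * x * h⁻¹ ∈ Q := by
      intro h hh x hx
      rw [hQ, Subgroup.mem_map] at hx
      obtain ⟨x', hx', rfl⟩ := hx
      rw [hQ, Subgroup.mem_map]
      exact ⟨⟨h, hh⟩ * x' * ⟨h, hh⟩⁻¹, hPHn.conj_mem x' hx' ⟨h, hh⟩, rfl⟩
    have hHN : H ≤ Subgroup.normalizer ((P : Subgroup G) : Set G) := by
      intro h hh
      rw [← hQP, Subgroup.mem_normalizer_iff]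
      intro x
      constructor
      · exact hconj h hh x
      · intro hx
        have h1 := hconj h⁻¹ (H.inv_mem hh) _ hx
        have h2 : h⁻¹ * (h * x * h⁻¹) * h⁻¹⁻¹ = x := by group
        rw [h2] at h1
        exact h1
    have h1 := Subgroup.card_le_of_le hHN
    rw [hH, hN7 P] at h1
    omega
  · obtain ⟨z, R, hz, hR, hnorm⟩ := a7_o252_aux hH hn
    refine a7z_no_norm9 hG hC7 (z : G) (by rw [Subgroup.orderOf_coe]; exact hz)
      (R.map H.subtype) ?_ ?_
    · rw [Subgroup.card_subtype]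
      exact hR
    · intro y hy
      rw [Subgroup.mem_map] at hy ⊢
      obtain ⟨y', hy', rfl⟩ := hy
      exact ⟨z * y' * z⁻¹, hnorm y' hy', rfl⟩

end Cfsg.Agent.Helper27
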