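import Mathlib
import Cfsg.Agent.Helper9.OrdTools
import Cfsg.Agent.Helper82.SylCent

/-!
# Piece S7 of S0984 (helper82's CALL): the Sylow 7-subgroups of a simple group of order 2520.
-/

set_option autoImplicit false

universe u

namespace Cfsg.Agent.Helper27

open Cfsg.Agent.Helper9

/-- PIECE S7 -/
theorem a7_syl7 {G : Type u} [Group G] [Finite G] [IsSimpleGroup G]
    (hG : Nat.card G = 2520) (h15 : Nat.card (Sylow 7 G) ≠ 15) (h36 : Nat.card (Sylow 7 G) ≠ 36)
    (P : Sylow 7 G) :
    Nat.card (Subgroup.centralizer ((P : Subgroup G) : Set G)) = 7 ∧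
      Nat.card (Subgroup.normalizer ((P : Subgroup G) : Set G)) = 21 := by
  classical
  have hdiv : ∀ n ∈ Nat.divisors 360, n % 7 = 1 →
      n = 1 ∨ n = 8 ∨ n = 15 ∨ n = 36 ∨ n = 120 := by decide +kernel
  haveI : Fact (Nat.Prime 7) := ⟨by norm_num⟩
  haveI : Fact (Nat.Prime 3) := ⟨by norm_num⟩
  have hP7 : Nat.card (P : Subgroup G) = 7 := by
    have h := OrdTools.sylow_card (G := G) (p := 7) 1 360 (by rw [hG]; norm_num) (by norm_num) P
    rw [h, pow_one]
  obtain ⟨hd, hmod, hne1, hN⟩ := OrdTools.sylow_num P (by rw [hP7]; norm_num)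
    (by rw [hP7, hG]; norm_num)
  have hidx : (P : Subgroup G).index = 360 := by
    have h1 := Subgroup.card_mul_index (P : Subgroup G)
    rw [hP7, hG] at h1
    omega
  rw [hidx] at hd
  obtain ⟨e, he6, he1, hNC, h7C⟩ := OrdTools.normalizer_centralizer_prime P hP7
    (by rw [hG]; norm_num)
  have he6' : e ≤ 6 := Nat.le_of_dvd (by norm_num) he6
  have hn := hdiv _ (Nat.mem_divisors.mpr ⟨hd, by norm_num⟩) hmod
  rcases hn with h | h | h | h | h
  · exact absurd h hne1
  · -- n_7 = 8
    exfalso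
    rw [h] at hN
    have hN315 : Nat.card (Subgroup.normalizer ((P : Subgroup G) : Set G)) = 315 := by
      rw [hG] at hN; omega
    rw [hN315] at hNC
    have h3C : 3 ∣ Nat.card (Subgroup.centralizer ((P : Subgroup G) : Set G)) := by
      obtain ⟨k, hk⟩ := h7C
      rw [hk] at hNC ⊢
      interval_cases e <;> omega
    obtain ⟨y, hy⟩ := exists_prime_orderOf_dvd_card' 3 h3C
    have hy' : orderOf (y : G) = 3 := by rw [Subgroup.orderOf_coe]; exact hy
    have h2 := Cfsg.Agent.Helper82.prime_mul_lt_card_sylow (p := 7) (r := 3) (by norm_num) P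
      (y : G) y.2 hy' (by rw [h]; norm_num)
    rw [h] at h2
    omega
  · exact absurd h h15
  · exact absurd h h36
  · -- n_7 = 120
    rw [h] at hN
    have hN21 : Nat.card (Subgroup.normalizer ((P : Subgroup G) : Set G)) = 21 := by
      rw [hG] at hN; omega
    refine ⟨?_, hN21⟩
    rw [hN21] at hNC
    obtain ⟨k, hk⟩ := h7C
    rw [hk] at hNC ⊢
    interval_cases e <;> omega

end Cfsg.Agent.Helper27
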