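import Cfsg.Agent.Helper85.CEDefs
import Cfsg.Agent.Helper84.FusionSat2
import Cfsg.Agent.Helper86.NormInd

/-!
# CALL S5155 (helper85), piece EXTA (double): a `p'`-automorphism of `Y` in `Aut_D(Y)` extends to a
`p'`-automorphism of `C_S(Y) Y` fixing `T` pointwise.
-/

set_option autoImplicit false
open Cfsg

namespace Cfsg.Agent.Helper27.CEEXTA

open Cfsg Cfsg.FusionSystem Cfsg.Agent.Helper85 Cfsg.Agent.Helper88

variable {Ω : Type*} [Group Ω] {S : Subgroup Ω}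

theorem ce_exta [Finite S] {p : ℕ} [Fact p.Prime] (hS : IsPGroup p S) {F : FusionSystem S}
    (hF : F.IsSaturated p) {T : Subgroup Ω} (hTS : T ≤ S) (hT : F.StronglyClosed T)
    {Y : Subgroup Ω} (hY : F.StronglyClosed Y) (hYT : Y ≤ centralizerIn S T) (D : FusionSystem Y)
    (hsub : D.IsSubsystemOf (centralizerSystem F T hTS)) {a : MulAut Y} (ha : a ∈ D.autGroup Y)
    {m : ℕ} (ham : a ^ m = 1) (hmp : m.Coprime p) :
    ∃ β ∈ F.autGroup (centralizerIn S Y ⊔ Y), ∃ b : ℕ, b.Coprime p ∧ β ^ b = 1 ∧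
      (∀ y ∈ Y, autFun β y = autFun a y) ∧ ∀ t ∈ T, autFun β t = t := by
  have hYS : Y ≤ S := hY.1
  have hQS : centralizerIn S Y ⊔ Y ≤ S := sup_le inf_le_left hYS
  have hfinQ : Finite ↥(centralizerIn S Y ⊔ Y) := Helper88.finite_of_le hQS
  have hRS : Y ⊔ T ≤ S := sup_le hYS hTS
  have hfinR : Finite ↥(Y ⊔ T) := Helper88.finite_of_le hRS
  -- `a` as a map of the centralizer system
  have haD : IsMap D Y (autFun a) := IsMap.of_mem_autGroup le_rfl ha
  have haC : IsCMap F T Y (autFun a) :=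
    (isMap_centSys_iff F hTS).1 (isMap_of_isSubsystemOf hsub haD)
  obtain ⟨haF, -, -, a', ha', ha'Y, ha'T⟩ := haC
  have hmaps' : ∀ x ∈ Y ⊔ T, a' x ∈ Y ⊔ T :=
    ha'.mapsTo_sup (fun x hx => Subgroup.mem_sup_left (by rw [ha'Y x hx]; exact autFun_mem a hx))
      (fun t ht => Subgroup.mem_sup_right (by rw [ha'T t ht]; exact ht))
  have himg' : img (Y ⊔ T) a' = Y ⊔ T := ha'.img_eq_of_mapsTo hmaps'
  -- conjugation by elements of `S` preserves `Y ⊔ T`
  have hconj : ∀ s ∈ S, ∀ x ∈ Y ⊔ T, s * x * s⁻¹ ∈ Y ⊔ T := fun s hs =>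
    (isMap_conj F hRS hs).mapsTo_sup
      (fun x hx => Subgroup.mem_sup_left (sc_apply_mem hY (isMap_conj F hYS hs) hx hx))
      (fun x hx => Subgroup.mem_sup_right (sc_apply_mem hT (isMap_conj F hTS hs) hx hx))
  have hnorm : S ≤ Subgroup.normalizer ((Y ⊔ T : Subgroup Ω) : Set Ω) := fun s hs =>
    mem_normalizer_of_conj_mem (fun x hx => hconj s hs x hx)
  have hrec : F.IsReceptive (Y ⊔ T) :=
    (Cfsg.Agent.Helper84.saturated_fullyNormalized hS F hF
      (Cfsg.Agent.Helper86.fullyNormalized_of_le_normalizer F hRS hnorm)).2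
  -- extension over `C_S(Y)`
  obtain ⟨b₀, hb₀, hb₀R⟩ := receptive_extend (N := centralizerIn S Y) hrec ha' himg'
    (fun g hg => by
      have hgS : g ∈ S := (mem_centralizerIn_iff.1 hg).1
      refine ⟨hgS, hnorm hgS, g, hgS, ?_⟩
      have h1 : IsMap F (Y ⊔ T) (a' ∘ fun x => g * x * g⁻¹) :=
        (isMap_conj F hRS hgS).comp ha' (hconj g hgS)
      have h2 : IsMap F (Y ⊔ T) ((fun x => g * x * g⁻¹) ∘ a') :=
        ha'.comp (isMap_conj F hRS hgS) hmaps'
      exact h1.eqOn_sup h2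
        (fun x hx => by
          show a' (g * x * g⁻¹) = g * a' x * g⁻¹
          rw [conj_eq_of_mem_centralizerIn hg hx, ha'Y x hx,
            conj_eq_of_mem_centralizerIn hg (autFun_mem a hx)])
        (fun t ht => by
          show a' (g * t * g⁻¹) = g * a' t * g⁻¹
          rw [ha'T t ht, ha'T _ (sc_apply_mem hT (isMap_conj F hTS hgS) ht ht)]))
  have hTC : T ≤ centralizerIn S Y := fun t ht =>
    mem_centralizerIn_iff.2 ⟨hTS ht, fun y hy => ((mem_centralizerIn_iff.1 (hYT hy)).2 t ht).symm⟩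
  have hb₀' : IsMap F (centralizerIn S Y ⊔ Y) b₀ := hb₀.restrict (sup_le_sup_left le_sup_left _)
  have hb₀Y : ∀ x ∈ Y, b₀ x = autFun a x := fun x hx =>
    (hb₀R x (Subgroup.mem_sup_left hx)).trans (ha'Y x hx)
  have hb₀T : ∀ t ∈ T, b₀ t = t := fun t ht =>
    (hb₀R t (Subgroup.mem_sup_right ht)).trans (ha'T t ht)
  have hmaps := cs_mapsTo hb₀' hb₀Y
  obtain ⟨β₀, hβ₀, hβ₀b⟩ := hb₀'.exists_aut (hb₀'.img_eq_of_mapsTo hmaps)
  have hβ₀Y : ∀ y ∈ Y, autFun β₀ y = autFun a y := fun y hy =>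
    (hβ₀b y (Subgroup.mem_sup_right hy)).trans (hb₀Y y hy)
  have hβ₀T : ∀ t ∈ T, autFun β₀ t = t := fun t ht =>
    (hβ₀b t (Subgroup.mem_sup_left (hTC ht))).trans (hb₀T t ht)
  have hpowY : ∀ j : ℕ, ∀ y ∈ Y, autFun (β₀ ^ j) y = autFun (a ^ j) y := by
    intro j
    induction j with
    | zero =>
      intro y hy
      rw [pow_zero, pow_zero, autFun_one (Subgroup.mem_sup_right hy), autFun_one hy]
    | succ j ih =>
      intro y hy
      rw [pow_succ, pow_succ, autFun_mul _ _ (Subgroup.mem_sup_right hy), hβ₀Y y hy,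
        ih _ (autFun_mem a hy), autFun_mul _ _ hy]
  have hpowT : ∀ j : ℕ, ∀ t ∈ T, autFun (β₀ ^ j) t = t := by
    intro j
    induction j with
    | zero =>
      intro t ht
      rw [pow_zero, autFun_one (Subgroup.mem_sup_left (hTC ht))]
    | succ j ih =>
      intro t ht
      rw [pow_succ, autFun_mul _ _ (Subgroup.mem_sup_left (hTC ht)), hβ₀T t ht, ih t ht]
  obtain ⟨N, b, hbp, hNb, hNm⟩ := exists_pprime_pow p β₀ hmp
  refine ⟨β₀ ^ N, Subgroup.pow_mem _ hβ₀ N, b, hbp, hNb, fun y hy => ?_, hpowT N⟩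
  rw [hpowY N y hy, pow_eq_self_of_mod ham hNm]

end Cfsg.Agent.Helper27.CEEXTA
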