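import Mathlib
import Cfsg.Prelude.Def_Transfer
import Cfsg.Agent.Helper2.PGroup

/-!
# Groups of order 512 given by an enumeration (helper27)

A group `G` with an enumeration `rep : ℕ → G` of its 512 elements and a function `m` on indices
computing products. From Boolean certificates on `m` (all evaluated by the kernel for a concrete
`m`) we derive: the centre of every maximal subgroup has order at most 8; the elements with index
below 64 form an elementary abelian subgroup `A` of order 64; `A` is the only abelian subgroup of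
order 64.
-/

set_option autoImplicit false

namespace Cfsg.Agent.Helper27.Enum512

/-- Check of a property on `[s, s + 2^d)` by binary splitting. -/
def rg (p : ℕ → Bool) : ℕ → ℕ → Bool
  | 0, s => p s
  | d + 1, s => rg p d s && rg p d (Nat.add s (Nat.pow 2 d))

theorem rg_spec (p : ℕ → Bool) (d s : ℕ) (h : rg p d s = true) :
    ∀ c, s ≤ c → c < s + 2 ^ d → p c = true := by
  induction d generalizing s with
  | zero =>
    intro c h1 h2
    have : c = s := by omega
    subst this; exact h
  | succ d ih =>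
    intro c h1 h2
    have h' : (rg p d s && rg p d (s + 2 ^ d)) = true := h
    rw [Bool.and_eq_true] at h'
    by_cases hc : c < s + 2 ^ d
    · exact ih s h'.1 c h1 hc
    · exact ih _ h'.2 c (by omega) (by rw [pow_succ] at h2; omega)

/-- An enumeration of a group of order 512 with multiplication `m` on indices. -/
structure E (G : Type*) [Group G] (m : ℕ → ℕ → ℕ) where
  rep : ℕ → G
  surj : ∀ g : G, ∃ j, j < 512 ∧ rep j = g
  inj : ∀ i j, i < 512 → j < 512 → rep i = rep j → i = j
  mul : ∀ i j, i < 512 → j < 512 → rep i * rep j = rep (m i j)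
  lt : ∀ i j, i < 512 → j < 512 → m i j < 512

/-- Commutation test on indices. -/
def cmB (m : ℕ → ℕ → ℕ) (i j : ℕ) : Bool := Nat.beq (m i j) (m j i)

section
variable {G : Type*} [Group G] {m : ℕ → ℕ → ℕ}

/-- Transport of an enumeration along an isomorphism. -/
def E.transport {H : Type*} [Group H] (e : E G m) (f : H ≃* G) : E H m where
  rep := fun i => f.symm (e.rep i)
  surj := fun h => by
    obtain ⟨j, hj, hr⟩ := e.surj (f h)
    exact ⟨j, hj, by rw [hr, f.symm_apply_apply]⟩
  inj := fun i j hi hj h => e.inj i j hi hj (f.symm.injective h)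
  mul := fun i j hi hj => by rw [← map_mul, e.mul i j hi hj]
  lt := e.lt

theorem E.comm_iff (e : E G m) {i j : ℕ} (hi : i < 512) (hj : j < 512) :
    e.rep i * e.rep j = e.rep j * e.rep i ↔ cmB m i j = true := by
  rw [e.mul i j hi hj, e.mul j i hj hi]
  constructor
  · intro h
    have h' : m i j = m j i := e.inj _ _ (e.lt i j hi hj) (e.lt j i hj hi) h
    unfold cmB
    rw [h']
    exact Nat.beq_refl _
  · intro h
    rw [Nat.eq_of_beq_eq_true h]

theorem E.finite (e : E G m) : Finite G :=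
  Finite.of_surjective (fun i : Fin 512 => e.rep i) (fun g => by
    obtain ⟨j, hj, h⟩ := e.surj g
    exact ⟨⟨j, hj⟩, h⟩)

theorem E.card (e : E G m) : Nat.card G = 512 := by
  have hb : Function.Bijective (fun i : Fin 512 => e.rep i) := by
    constructor
    · intro i j h
      exact Fin.ext (e.inj _ _ i.2 j.2 h)
    · intro g
      obtain ⟨j, hj, h⟩ := e.surj g
      exact ⟨⟨j, hj⟩, h⟩
  rw [← Nat.card_eq_of_bijective _ hb, Nat.card_fin]

/-- A type injecting into `G` with image among the elements indexed by `s` has at most `#s`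
elements. -/
theorem E.card_le (e : E G m) {X : Type*} (f : X → G) (hf : Function.Injective f)
    (s : Finset ℕ) (h : ∀ x, ∃ j ∈ s, e.rep j = f x) : Nat.card X ≤ s.card := by
  classical
  choose c hc hc' using h
  have hinj : Function.Injective (fun x => (⟨c x, hc x⟩ : s)) := by
    intro x y hxy
    have h1 : c x = c y := congrArg Subtype.val hxy
    apply hf
    rw [← hc' x, ← hc' y, h1]
  have h2 := Nat.card_le_card_of_injective _ hinj
  rwa [Nat.card_eq_fintype_card (α := s), Fintype.card_coe] at h2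

theorem E.rep_zero (e : E G m) (h0 : m 0 0 = 0) : e.rep 0 = 1 := by
  have h := e.mul 0 0 (by norm_num) (by norm_num)
  rw [h0] at h
  exact mul_eq_left.1 h

/-! ### The subgroup `A` -/

/-- Certificate for `A`: indices below 64 are closed under `m`, commute, and square to `0`. -/
def chkA (m : ℕ → ℕ → ℕ) (i : ℕ) : Bool :=
  Nat.beq (m i i) 0 && rg (fun j => decide (m i j < 64) && Nat.beq (m i j) (m j i)) 6 0

theorem chkA_spec (hA : rg (chkA m) 6 0 = true) {i j : ℕ} (hi : i < 64) (hj : j < 64) :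
    m i i = 0 ∧ m i j < 64 ∧ m i j = m j i := by
  have h1 := rg_spec _ 6 0 hA i (Nat.zero_le _) (by norm_num; exact hi)
  unfold chkA at h1
  rw [Bool.and_eq_true] at h1
  obtain ⟨h2, h3⟩ := h1
  have h4 : (decide (m i j < 64) && Nat.beq (m i j) (m j i)) = true :=
    rg_spec _ 6 0 h3 j (Nat.zero_le _) (by norm_num; exact hj)
  rw [Bool.and_eq_true] at h4
  exact ⟨Nat.eq_of_beq_eq_true h2, of_decide_eq_true h4.1, Nat.eq_of_beq_eq_true h4.2⟩

theorem chkA_zero (hA : rg (chkA m) 6 0 = true) : m 0 0 = 0 :=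
  (chkA_spec hA (i := 0) (j := 0) (by norm_num) (by norm_num)).1

/-- The subgroup of the elements with index below 64. -/
def E.A (e : E G m) (hA : rg (chkA m) 6 0 = true) : Subgroup G where
  carrier := {g | ∃ j, j < 64 ∧ e.rep j = g}
  mul_mem' := by
    rintro _ _ ⟨i, hi, rfl⟩ ⟨j, hj, rfl⟩
    exact ⟨m i j, (chkA_spec hA hi hj).2.1, (e.mul i j (by omega) (by omega)).symm⟩
  one_mem' := ⟨0, by norm_num, e.rep_zero (chkA_zero hA)⟩
  inv_mem' := by
    rintro _ ⟨i, hi, rfl⟩
    refine ⟨i, hi, ?_⟩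
    have h := e.mul i i (by omega) (by omega)
    rw [(chkA_spec hA hi hi).1, e.rep_zero (chkA_zero hA)] at h
    exact eq_inv_of_mul_eq_one_left h

theorem E.mem_A (e : E G m) (hA : rg (chkA m) 6 0 = true) {g : G} :
    g ∈ e.A hA ↔ ∃ j, j < 64 ∧ e.rep j = g := Iff.rfl

theorem E.A_comm (e : E G m) (hA : rg (chkA m) 6 0 = true) :
    ∀ x ∈ e.A hA, ∀ y ∈ e.A hA, x * y = y * x := by
  rintro _ ⟨i, hi, rfl⟩ _ ⟨j, hj, rfl⟩
  rw [e.mul i j (by omega) (by omega), e.mul j i (by omega) (by omega),
    (chkA_spec hA hi hj).2.2]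

theorem E.A_sq (e : E G m) (hA : rg (chkA m) 6 0 = true) : ∀ x ∈ e.A hA, x ^ 2 = 1 := by
  rintro _ ⟨i, hi, rfl⟩
  rw [sq, e.mul i i (by omega) (by omega), (chkA_spec hA hi hi).1,
    e.rep_zero (chkA_zero hA)]

theorem E.card_A (e : E G m) (hA : rg (chkA m) 6 0 = true) : Nat.card (e.A hA) = 64 := by
  have hb : Function.Bijective
      (fun i : Fin 64 => (⟨e.rep i, ⟨i, i.2, rfl⟩⟩ : e.A hA)) := by
    constructor
    · intro i j h
      have h' : e.rep i = e.rep j := congrArg Subtype.val h
      exact Fin.ext (e.inj _ _ (by omega) (by omega) h')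
    · rintro ⟨g, j, hj, rfl⟩
      exact ⟨⟨j, hj⟩, rfl⟩
  rw [← Nat.card_eq_of_bijective _ hb, Nat.card_fin]

/-! ### Centres of maximal subgroups -/

/-- Certificate: the element `i` (outside the first twelve) fails to commute with each of
`w1 i`, `w2 i` and their product. -/
def chk1 (m : ℕ → ℕ → ℕ) (w1 w2 : ℕ → ℕ) (i : ℕ) : Bool :=
  decide (i < 12) || (decide (w1 i < 512) && (decide (w2 i < 512) && (!cmB m i (w1 i) &&
    (!cmB m i (w2 i) && !cmB m i (m (w1 i) (w2 i))))))

/-- Certificate: each of `g`, `h` and their product fails to commute with `i` or with `j`. -/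
def chk2 (m : ℕ → ℕ → ℕ) (g h i j : ℕ) : Bool :=
  (!cmB m i g || !cmB m j g) && ((!cmB m i h || !cmB m j h) &&
    (!cmB m i (m g h) || !cmB m j (m g h)))

theorem part1 (e : E G m) (w1 w2 : ℕ → ℕ) (g h : ℕ) (hg : g < 512) (hh : h < 512)
    (h1 : rg (chk1 m w1 w2) 9 0 = true)
    (h2 : rg (fun i => rg (fun j => chk2 m g h (Nat.add 4 i) (Nat.add 8 j)) 2 0) 2 0 = true)
    (M : Subgroup G) (hM : IsCoatom M) : Nat.card (Subgroup.center M) ≤ 8 := by
  classical
  have hfin : Finite G := e.finite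
  have hp2 : Fact (Nat.Prime 2) := ⟨Nat.prime_two⟩
  have hG : IsPGroup 2 G := IsPGroup.of_card (n := 9) (by rw [e.card]; norm_num)
  have hidx : M.index = 2 := Cfsg.Agent.Helper2.coatom_index_of_isPGroup hG M hM
  have key3 : ∀ a b : G, a ∈ M ∨ b ∈ M ∨ a * b ∈ M := by
    intro a b
    by_cases ha : a ∈ M
    · exact Or.inl ha
    · by_cases hb : b ∈ M
      · exact Or.inr (Or.inl hb)
      · exact Or.inr (Or.inr ((Subgroup.mul_mem_iff_of_index_two hidx).2 (iff_of_false ha hb)))
  -- the indices of the elements centralising `M`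
  have hP12 : ∀ i, i < 512 → (∀ y ∈ M, e.rep i * y = y * e.rep i) → i < 12 := by
    intro i hi hc
    by_contra hcon
    have c := rg_spec _ 9 0 h1 i (Nat.zero_le _) (by norm_num; exact hi)
    unfold chk1 at c
    rw [Bool.or_eq_true] at c
    rcases c with c | c
    · exact hcon (of_decide_eq_true c)
    · simp only [Bool.and_eq_true, decide_eq_true_eq, Bool.not_eq_true'] at c
      obtain ⟨hw1, hw2, n1, n2, n3⟩ := c
      rcases key3 (e.rep (w1 i)) (e.rep (w2 i)) with hm | hm | hm
      · have h3 := (e.comm_iff hi hw1).1 (hc _ hm)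
        rw [n1] at h3
        exact Bool.false_ne_true h3
      · have h3 := (e.comm_iff hi hw2).1 (hc _ hm)
        rw [n2] at h3
        exact Bool.false_ne_true h3
      · rw [e.mul _ _ hw1 hw2] at hm
        have h3 := (e.comm_iff hi (e.lt _ _ hw1 hw2)).1 (hc _ hm)
        rw [n3] at h3
        exact Bool.false_ne_true h3
  have hP2 : ∀ i j, (∀ y ∈ M, e.rep i * y = y * e.rep i) →
      (∀ y ∈ M, e.rep j * y = y * e.rep j) → 4 ≤ i → i < 8 → 8 ≤ j → j < 12 → False := by
    intro i j hci hcj hi4 hi8 hj8 hj12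
    have c1 := rg_spec _ 2 0 h2 (i - 4) (Nat.zero_le _) (by norm_num; omega)
    have c2 : chk2 m g h (Nat.add 4 (i - 4)) (Nat.add 8 (j - 8)) = true :=
      rg_spec _ 2 0 c1 (j - 8) (Nat.zero_le _) (by norm_num; omega)
    have e1 : Nat.add 4 (i - 4) = i := by show 4 + (i - 4) = i; omega
    have e2 : Nat.add 8 (j - 8) = j := by show 8 + (j - 8) = j; omega
    rw [e1, e2] at c2
    unfold chk2 at c2
    simp only [Bool.and_eq_true, Bool.or_eq_true, Bool.not_eq_true'] at c2
    obtain ⟨n1, n2, n3⟩ := c2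
    have hi : i < 512 := by omega
    have hj : j < 512 := by omega
    have fin : ∀ k, k < 512 → e.rep k ∈ M → (cmB m i k = false ∨ cmB m j k = false) → False := by
      intro k hk hkM hor
      have a1 := (e.comm_iff hi hk).1 (hci _ hkM)
      have a2 := (e.comm_iff hj hk).1 (hcj _ hkM)
      rcases hor with hor | hor
      · rw [hor] at a1; exact Bool.false_ne_true a1
      · rw [hor] at a2; exact Bool.false_ne_true a2
    rcases key3 (e.rep g) (e.rep h) with hm | hm | hm
    · exact fin g hg hm n1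
    · exact fin h hh hm n2
    · rw [e.mul _ _ hg hh] at hm
      exact fin _ (e.lt _ _ hg hh) hm n3
  -- the set of indices
  have hcen : ∀ x : Subgroup.center M, ∀ y ∈ M, ((x : M) : G) * y = y * ((x : M) : G) := by
    intro x y hy
    have h3 := Subgroup.mem_center_iff.1 x.2 ⟨y, hy⟩
    exact (congrArg Subtype.val h3).symm
  have hinj : Function.Injective (fun x : Subgroup.center M => ((x : M) : G)) :=
    Subtype.val_injective.comp Subtype.val_injective
  by_cases hex : ∃ j, j < 512 ∧ (∀ y ∈ M, e.rep j * y = y * e.rep j) ∧ 8 ≤ j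
  · obtain ⟨j, hj, hcj, hj8⟩ := hex
    have hj12 := hP12 j hj hcj
    have hle := e.card_le (fun x : Subgroup.center M => ((x : M) : G)) hinj
      ((Finset.range 12).filter (fun k => k < 4 ∨ 8 ≤ k)) (by
        intro x
        obtain ⟨k, hk, hkx⟩ := e.surj ((x : M) : G)
        have hck : ∀ y ∈ M, e.rep k * y = y * e.rep k := by
          intro y hy; rw [hkx]; exact hcen x y hy
        have hk12 := hP12 k hk hck
        refine ⟨k, ?_, hkx⟩
        rw [Finset.mem_filter, Finset.mem_range]
        refine ⟨hk12, ?_⟩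
        by_contra hcon
        exact hP2 k j hck hcj (by omega) (by omega) hj8 hj12)
    exact le_trans hle (by decide)
  · have hle := e.card_le (fun x : Subgroup.center M => ((x : M) : G)) hinj (Finset.range 8) (by
        intro x
        obtain ⟨k, hk, hkx⟩ := e.surj ((x : M) : G)
        have hck : ∀ y ∈ M, e.rep k * y = y * e.rep k := by
          intro y hy; rw [hkx]; exact hcen x y hy
        refine ⟨k, ?_, hkx⟩
        rw [Finset.mem_range]
        by_contra hcon
        exact hex ⟨k, hk, hck, by omega⟩)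
    exact le_trans hle (by simp)

end

/-! ### Uniqueness of the abelian subgroup of order 64 -/

/-- A subgroup `B` is covered by at most `#R` cosets of `B ⊓ A`, if a function `κ` whose fibres
lie in cosets of `A` takes its values on `B` in `R`. -/
theorem card_le_fibers {G : Type*} [Group G] [Finite G] (B A : Subgroup G) (κ : G → ℕ)
    (hκ : ∀ x y, κ x = κ y → x⁻¹ * y ∈ A) (R : Finset ℕ) (hR : ∀ b ∈ B, κ b ∈ R) :
    Nat.card B ≤ R.card * Nat.card (B ⊓ A : Subgroup G) := by
  classical
  have hex : ∀ r : ℕ, ∃ b : G, (∃ b' ∈ B, κ b' = r) → (b ∈ B ∧ κ b = r) := by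
    intro r
    by_cases h : ∃ b' ∈ B, κ b' = r
    · obtain ⟨b', hb', hk⟩ := h
      exact ⟨b', fun _ => ⟨hb', hk⟩⟩
    · exact ⟨1, fun h' => absurd h' h⟩
  choose t ht using hex
  have htb : ∀ b : B, t (κ b) ∈ B ∧ κ (t (κ b)) = κ b := fun b => ht (κ b) ⟨b, b.2, rfl⟩
  let f : B → R × (B ⊓ A : Subgroup G) := fun b =>
    (⟨κ b, hR b b.2⟩, ⟨(t (κ b))⁻¹ * b,
      Subgroup.mem_inf.2 ⟨mul_mem (inv_mem (htb b).1) b.2, hκ _ _ (htb b).2⟩⟩)
  have hf : Function.Injective f := by
    intro b b' h
    have h1 : κ b = κ b' := congrArg (fun p => (p.1 : ℕ)) h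
    have h2 : (t (κ b))⁻¹ * b = (t (κ b'))⁻¹ * b' :=
      congrArg (fun p => ((p.2 : (B ⊓ A : Subgroup G)) : G)) h
    rw [h1] at h2
    exact Subtype.ext (mul_left_cancel h2)
  have h3 := Nat.card_le_card_of_injective f hf
  rwa [Nat.card_prod, Nat.card_eq_fintype_card (α := R), Fintype.card_coe] at h3

/-- The indices below 64 commuting with the representative `64 c`. -/
def cA (m : ℕ → ℕ → ℕ) (c : ℕ) : List ℕ :=
  (List.range 64).filter (fun j => cmB m (Nat.mul 64 c) j)

/-- The indices below 64 commuting with the representatives `64 c` and `64 c'`. -/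
def cA2 (m : ℕ → ℕ → ℕ) (c c' : ℕ) : List ℕ :=
  (List.range 64).filter (fun j => cmB m (Nat.mul 64 c) j && cmB m (Nat.mul 64 c') j)

/-- Certificate: `rep (64 c + j) = rep (64 c) * rep j`. -/
def chk3a (m : ℕ → ℕ → ℕ) (c : ℕ) : Bool :=
  rg (fun j => Nat.beq (m (Nat.mul 64 c) j) (Nat.add (Nat.mul 64 c) j)) 6 0

def chk3b (m : ℕ → ℕ → ℕ) (c : ℕ) : Bool :=
  Nat.beq c 0 || Nat.ble (cA m c).length 16

def chk3c (m : ℕ → ℕ → ℕ) (c c' : ℕ) : Bool :=
  Nat.beq c 0 || (Nat.beq c' 0 || (Nat.beq c c' || Nat.ble (cA2 m c c').length 8))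

section
variable {G : Type*} [Group G] {m : ℕ → ℕ → ℕ}

theorem E.dec (e : E G m) (h3a : rg (chk3a m) 3 0 = true) {i : ℕ} (hi : i < 512) :
    e.rep i = e.rep (Nat.mul 64 (i / 64)) * e.rep (i % 64) := by
  have hc : i / 64 < 8 := by omega
  have h1 := rg_spec _ 3 0 h3a (i / 64) (Nat.zero_le _) (by norm_num; exact hc)
  have h2 : Nat.beq (m (Nat.mul 64 (i / 64)) (i % 64)) (Nat.add (Nat.mul 64 (i / 64)) (i % 64)) =
      true :=
    rg_spec _ 6 0 h1 (i % 64) (Nat.zero_le _) (by norm_num; exact Nat.mod_lt _ (by norm_num))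
  have h3 : Nat.mul 64 (i / 64) < 512 := by show 64 * (i / 64) < 512; omega
  have h4 : i % 64 < 512 := by omega
  rw [e.mul _ _ h3 h4, Nat.eq_of_beq_eq_true h2]
  have h5 : Nat.add (Nat.mul 64 (i / 64)) (i % 64) = i := Nat.div_add_mod i 64
  rw [h5]

theorem part3 (e : E G m) (hA : rg (chkA m) 6 0 = true) (h3a : rg (chk3a m) 3 0 = true)
    (h3b : rg (chk3b m) 3 0 = true) (h3c : rg (fun c => rg (chk3c m c) 3 0) 3 0 = true)
    (h3d : (cA m 6).length ≤ 4) (B : Subgroup G)
    (hB : ∀ x ∈ B, ∀ y ∈ B, x * y = y * x) (hcard : Nat.card B = 64) : B = e.A hA := by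
  classical
  have hfin : Finite G := e.finite
  -- the index of an element
  have hsurj := e.surj
  choose idx hidx hrep using hsurj
  have hidx_rep : ∀ i, i < 512 → idx (e.rep i) = i := fun i hi =>
    e.inj _ _ (hidx _) hi (hrep _)
  have hAmem : ∀ j, j < 64 → e.rep j ∈ e.A hA := fun j hj => ⟨j, hj, rfl⟩
  have hmod : ∀ i, e.rep (i % 64) ∈ e.A hA := fun i => hAmem _ (Nat.mod_lt _ (by norm_num))
  -- elements with the same `κ` differ by an element of `A`
  have hκ : ∀ x y : G, idx x / 64 = idx y / 64 → x⁻¹ * y ∈ e.A hA := by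
    intro x y hxy
    have hx := e.dec h3a (hidx x)
    have hy := e.dec h3a (hidx y)
    rw [hrep] at hx hy
    rw [hxy] at hx
    have hmx := hmod (idx x)
    have hmy := hmod (idx y)
    generalize e.rep (idx x % 64) = a at hx hmx
    generalize e.rep (idx y % 64) = a' at hy hmy
    generalize e.rep (Nat.mul 64 (idx y / 64)) = r at hx hy
    have e1 : x⁻¹ * y = a⁻¹ * a' := by
      rw [hx, hy]; group
    rw [e1]
    exact mul_mem (inv_mem hmx) hmy
  -- the fibre bound
  have key : ∀ R : Finset ℕ, (∀ b ∈ B, idx b / 64 ∈ R) →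
      64 ≤ R.card * Nat.card (B ⊓ e.A hA : Subgroup G) := by
    intro R hR
    rw [← hcard]
    exact card_le_fibers B (e.A hA) (fun g => idx g / 64) hκ R hR
  have hk8 : ∀ b : G, idx b / 64 < 8 := fun b => by have := hidx b; omega
  -- elements of `B ⊓ A` commute with the representative of the coset of any element of `B`
  have hcent : ∀ x ∈ B, ∀ b : (B ⊓ e.A hA : Subgroup G), ∃ j, j < 64 ∧ e.rep j = (b : G) ∧
      cmB m (Nat.mul 64 (idx x / 64)) j = true := by
    intro x hx b
    obtain ⟨hbB, j, hj, hjb⟩ := Subgroup.mem_inf.1 b.2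
    refine ⟨j, hj, hjb, ?_⟩
    have h3 : Nat.mul 64 (idx x / 64) < 512 := by
      show 64 * (idx x / 64) < 512
      have := hk8 x
      omega
    rw [← e.comm_iff h3 (by omega), hjb]
    have hx' := e.dec h3a (hidx x)
    rw [hrep] at hx'
    have h1 : (b : G) * x = x * (b : G) := hB _ hbB _ hx
    have h2 : (b : G) * e.rep (idx x % 64) = e.rep (idx x % 64) * (b : G) :=
      e.A_comm hA _ (hjb ▸ hAmem j hj) _ (hmod _)
    generalize e.rep (Nat.mul 64 (idx x / 64)) = r at hx' ⊢
    generalize e.rep (idx x % 64) = a at hx' h2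
    rw [hx'] at h1
    calc r * (b : G) = r * (a * (b : G)) * a⁻¹ := by rw [← h2]; group
      _ = (r * a * (b : G)) * a⁻¹ := by group
      _ = ((b : G) * (r * a)) * a⁻¹ := by rw [h1]
      _ = (b : G) * r := by group
  have hinj : Function.Injective (fun b : (B ⊓ e.A hA : Subgroup G) => (b : G)) :=
    Subtype.val_injective
  have bound1 : ∀ x ∈ B, Nat.card (B ⊓ e.A hA : Subgroup G) ≤ (cA m (idx x / 64)).length := by
    intro x hx
    refine le_trans (e.card_le _ hinj (cA m (idx x / 64)).toFinset ?_) (List.toFinset_card_le _)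
    intro b
    obtain ⟨j, hj, hjb, hc⟩ := hcent x hx b
    refine ⟨j, ?_, hjb⟩
    rw [List.mem_toFinset, cA, List.mem_filter, List.mem_range]
    exact ⟨hj, hc⟩
  have bound2 : ∀ x ∈ B, ∀ y ∈ B, Nat.card (B ⊓ e.A hA : Subgroup G) ≤
      (cA2 m (idx x / 64) (idx y / 64)).length := by
    intro x hx y hy
    refine le_trans (e.card_le _ hinj (cA2 m (idx x / 64) (idx y / 64)).toFinset ?_)
      (List.toFinset_card_le _)
    intro b
    obtain ⟨j, hj, hjb, hc⟩ := hcent x hx b
    obtain ⟨j', hj', hjb', hc'⟩ := hcent y hy b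
    have hjj : j' = j := e.inj _ _ (by omega) (by omega) (hjb'.trans hjb.symm)
    rw [hjj] at hc'
    refine ⟨j, ?_, hjb⟩
    rw [List.mem_toFinset, cA2, List.mem_filter, List.mem_range, Bool.and_eq_true]
    exact ⟨hj, hc, hc'⟩
  by_cases h0 : ∀ b ∈ B, idx b / 64 = 0
  · apply Subgroup.eq_of_le_of_card_ge
    · intro b hb
      have h1 := h0 b hb
      have h2 : idx b < 64 := by omega
      exact ⟨idx b, h2, hrep b⟩
    · rw [e.card_A hA, hcard]
  · exfalso
    have h0' : ∃ x ∈ B, idx x / 64 ≠ 0 := by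
      by_contra hcon
      apply h0
      intro b hb
      by_contra hne
      exact hcon ⟨b, hb, hne⟩
    obtain ⟨x, hx, hxc⟩ := h0'
    have hN16 : Nat.card (B ⊓ e.A hA : Subgroup G) ≤ 16 := by
      refine le_trans (bound1 x hx) ?_
      have c1 := rg_spec _ 3 0 h3b (idx x / 64) (Nat.zero_le _) (by norm_num; exact hk8 x)
      unfold chk3b at c1
      rw [Bool.or_eq_true] at c1
      rcases c1 with c1 | c1
      · exact absurd (Nat.eq_of_beq_eq_true c1) hxc
      · exact Nat.le_of_ble_eq_true c1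
    by_cases h1 : ∀ b ∈ B, idx b / 64 = 0 ∨ idx b / 64 = idx x / 64
    · have h2 := key {0, idx x / 64} (by
        intro b hb
        rw [Finset.mem_insert, Finset.mem_singleton]
        exact h1 b hb)
      have h3 : ({0, idx x / 64} : Finset ℕ).card ≤ 2 := Finset.card_le_two
      have h4 := Nat.mul_le_mul h3 hN16
      omega
    · have h1' : ∃ y ∈ B, idx y / 64 ≠ 0 ∧ idx y / 64 ≠ idx x / 64 := by
        by_contra hcon
        apply h1
        intro b hb
        by_contra hne
        rw [not_or] at hne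
        exact hcon ⟨b, hb, hne.1, hne.2⟩
      obtain ⟨y, hy, hyc, hyx⟩ := h1'
      have hN8 : Nat.card (B ⊓ e.A hA : Subgroup G) ≤ 8 := by
        refine le_trans (bound2 x hx y hy) ?_
        have c1 := rg_spec _ 3 0 h3c (idx x / 64) (Nat.zero_le _) (by norm_num; exact hk8 x)
        have c2 : chk3c m (idx x / 64) (idx y / 64) = true :=
          rg_spec _ 3 0 c1 (idx y / 64) (Nat.zero_le _) (by norm_num; exact hk8 y)
        unfold chk3c at c2
        rw [Bool.or_eq_true, Bool.or_eq_true, Bool.or_eq_true] at c2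
        rcases c2 with c2 | c2 | c2 | c2
        · exact absurd (Nat.eq_of_beq_eq_true c2) hxc
        · exact absurd (Nat.eq_of_beq_eq_true c2) hyc
        · exact absurd (Nat.eq_of_beq_eq_true c2).symm hyx
        · exact Nat.le_of_ble_eq_true c2
      by_cases h2 : ∃ w ∈ B, idx w / 64 = 6
      · obtain ⟨w, hw, hwc⟩ := h2
        have hN4 : Nat.card (B ⊓ e.A hA : Subgroup G) ≤ 4 := by
          refine le_trans (bound1 w hw) ?_
          rw [hwc]
          exact h3d
        have h3 := key (Finset.range 8) (by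
          intro b _
          rw [Finset.mem_range]
          exact hk8 b)
        rw [Finset.card_range] at h3
        have h4 := Nat.mul_le_mul_left 8 hN4
        omega
      · have h3 := key ((Finset.range 8).erase 6) (by
          intro b hb
          rw [Finset.mem_erase, Finset.mem_range]
          exact ⟨fun h6 => h2 ⟨b, hb, h6⟩, hk8 b⟩)
        have h5 : ((Finset.range 8).erase 6).card = 7 := by decide
        rw [h5] at h3
        have h4 := Nat.mul_le_mul_left 7 hN8
        omega

/-- The three statements on a group of order 512 with certificates. -/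
theorem main (e : E G m) (w1 w2 : ℕ → ℕ) (g h : ℕ) (hg : g < 512) (hh : h < 512)
    (hA : rg (chkA m) 6 0 = true)
    (h1 : rg (chk1 m w1 w2) 9 0 = true)
    (h2 : rg (fun i => rg (fun j => chk2 m g h (Nat.add 4 i) (Nat.add 8 j)) 2 0) 2 0 = true)
    (h3a : rg (chk3a m) 3 0 = true)
    (h3b : rg (chk3b m) 3 0 = true) (h3c : rg (fun c => rg (chk3c m c) 3 0) 3 0 = true)
    (h3d : (cA m 6).length ≤ 4) :
    (∀ M : Subgroup G, IsCoatom M → Nat.card (Subgroup.center M) ≤ 8) ∧
      (∃ A : Subgroup G, Cfsg.IsElementaryAbelian 2 A ∧ Nat.card A = 64) ∧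
      ∀ A B : Subgroup G, IsMulCommutative A → Nat.card A = 64 → IsMulCommutative B →
        Nat.card B = 64 → A = B := by
  refine ⟨fun M hM => part1 e w1 w2 g h hg hh h1 h2 M hM, ⟨e.A hA, ⟨?_, e.A_sq hA⟩, e.card_A hA⟩,
    ?_⟩
  · exact ⟨⟨fun a b => Subtype.ext (e.A_comm hA a a.2 b b.2)⟩⟩
  · intro A B hAc hAn hBc hBn
    have hA' : ∀ x ∈ A, ∀ y ∈ A, x * y = y * x := fun x hx y hy =>
      congrArg Subtype.val (hAc.is_comm.comm ⟨x, hx⟩ ⟨y, hy⟩)
    have hB' : ∀ x ∈ B, ∀ y ∈ B, x * y = y * x := fun x hx y hy =>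
      congrArg Subtype.val (hBc.is_comm.comm ⟨x, hx⟩ ⟨y, hy⟩)
    rw [part3 e hA h3a h3b h3c h3d A hA' hAn, part3 e hA h3a h3b h3c h3d B hB' hBn]

end

end Cfsg.Agent.Helper27.Enum512
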