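import Cfsg.Agent.Helper63.N14Defs

set_option autoImplicit false

/-!
# Piece B1c of S4414 (helper63's CALL): equivariance of the hyperplane projections.
-/

namespace Cfsg.Agent.Helper27.N14

open Cfsg.Agent.Helper63.N14

/-- B1c. Equivariance of the hyperplane projections. -/
theorem eH_equiv {S : Type*} [Group S] [Finite S] {E : Type*} [AddCommGroup E]
    [Module (ZMod 2) E] (ρ : Representation (ZMod 2) S E) (p : ℕ) (A : Subgroup S)
    (hAN : A.Normal) :
    ∀ (s : S) (K : Subgroup S), ρ s * eH ρ A p K = eH ρ A p (cj s K) * ρ s := by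
  classical
  intro s K
  have hmem : ∀ k ∈ K, s * k * s⁻¹ ∈ cj s K := fun k hk => mem_cj.mpr ⟨k, hk, rfl⟩
  have hbij : Function.Bijective
      (fun k : ↥K => (⟨s * k.1 * s⁻¹, hmem k.1 k.2⟩ : ↥(cj s K))) := by
    constructor
    · intro x y hxy
      have h1 : s * x.1 * s⁻¹ = s * y.1 * s⁻¹ := congrArg Subtype.val hxy
      apply Subtype.ext
      simpa using h1
    · rintro ⟨x, hx⟩
      obtain ⟨k, hk, rfl⟩ := mem_cj.mp hx
      exact ⟨⟨k, hk⟩, rfl⟩
  have hcard : Nat.card (cj s K) = Nat.card K := (Nat.card_congr (Equiv.ofBijective _ hbij)).symm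
  have hiff : IsHyp A p (cj s K) ↔ IsHyp A p K := by
    unfold IsHyp
    rw [hcard]
    constructor
    · rintro ⟨h1, h2⟩
      refine ⟨fun k hk => ?_, h2⟩
      have h3 := h1 (hmem k hk)
      have h4 := hAN.conj_mem _ h3 s⁻¹
      have h5 : s⁻¹ * (s * k * s⁻¹) * s⁻¹⁻¹ = k := by group
      rw [h5] at h4
      exact h4
    · rintro ⟨h1, h2⟩
      refine ⟨fun x hx => ?_, h2⟩
      obtain ⟨k, hk, rfl⟩ := mem_cj.mp hx
      exact hAN.conj_mem _ (h1 hk) s
  unfold eH
  by_cases hK : IsHyp A p K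
  · rw [if_pos hK, if_pos (hiff.mpr hK)]
    haveI : Fintype ↥K := Fintype.ofFinite _
    haveI : Fintype ↥(cj s K) := Fintype.ofFinite _
    unfold eK
    rw [finsum_eq_sum_of_fintype, finsum_eq_sum_of_fintype, Finset.mul_sum, Finset.sum_mul]
    apply Fintype.sum_equiv (Equiv.ofBijective _ hbij)
    intro k
    show ρ s * ρ (k : S) = ρ (s * (k : S) * s⁻¹) * ρ s
    rw [← map_mul, ← map_mul]
    congr 1
    group
  · rw [if_neg hK, if_neg (fun h => hK (hiff.mp h))]
    simp

end Cfsg.Agent.Helper27.N14
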