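import Cfsg.Agent.Helper63.N14Defs

set_option autoImplicit false

/-!
# Piece B1d of S4414 (helper63's CALL): fixed vectors of a hyperplane projection.
-/

namespace Cfsg.Agent.Helper27.N14

open Cfsg.Agent.Helper63.N14

/-- B1d. The fixed vectors of `eH ρ A p K` are the fixed vectors of `K`. -/
theorem eH_fix {S : Type*} [Group S] [Finite S] {E : Type*} [AddCommGroup E] [Module (ZMod 2) E]
    (ρ : Representation (ZMod 2) S E) (p : ℕ) (A : Subgroup S) (hAodd : Odd (Nat.card A))
    (K : Subgroup S) (hK : IsHyp A p K) (w : E) :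
    eH ρ A p K w = w ↔ ∀ k ∈ K, ρ k w = w := by
  classical
  have h20 : (2 : ZMod 2) = 0 := by decide
  have heH : eH ρ A p K = eK ρ K := by
    unfold eH
    rw [if_pos hK]
  haveI : Fintype ↥K := Fintype.ofFinite _
  have heK : eK ρ K = ∑ k : ↥K, ρ (k : S) := by
    unfold eK
    exact finsum_eq_sum_of_fintype _
  have happ : ∀ u : E, eH ρ A p K u = ∑ k : ↥K, ρ (k : S) u := by
    intro u
    rw [heH, heK, LinearMap.sum_apply]
  have hKodd : Odd (Nat.card K) := by
    have h1 : Nat.card K * p = Nat.card A := hK.2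
    rw [← h1] at hAodd
    exact (Nat.odd_mul.mp hAodd).1
  constructor
  · intro h k hk
    have h1 : ρ k (eH ρ A p K w) = eH ρ A p K w := by
      rw [happ, map_sum]
      apply Fintype.sum_equiv (Equiv.mulLeft (⟨k, hk⟩ : ↥K))
      intro x
      show ρ k (ρ (x : S) w) = ρ ((⟨k, hk⟩ * x : ↥K) : S) w
      rw [Subgroup.coe_mul, map_mul]
      rfl
    rw [h] at h1
    exact h1
  · intro h
    rw [happ]
    have h1 : ∀ k : ↥K, ρ (k : S) w = w := fun k => h k k.2
    simp only [h1]
    rw [Finset.sum_const, Finset.card_univ, ← Nat.card_eq_fintype_card]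
    obtain ⟨m, hm⟩ := hKodd
    rw [hm, add_smul, one_smul, mul_smul]
    have h2 : (2 : ℕ) • (m • w) = 0 := by
      rw [two_nsmul, ← two_smul (ZMod 2), h20, zero_smul]
    rw [h2, zero_add]

end Cfsg.Agent.Helper27.N14
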