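import Cfsg.Agent.Helper63.N14Defs

set_option autoImplicit false

/-!
# Piece C2 of S4414 (helper63's CALL): a fixed vector of a 2-group supported on an orbit.
-/

namespace Cfsg.Agent.Helper27.N14

open Cfsg.Agent.Helper63.N14

/-- C2. For a `2`-group `P`: a `P`-fixed vector supported on the `P`-orbit of `i`
(`h2fix` is G1, `hlift` is C1). -/
theorem orbit_vector {S : Type*} [Group S] [Finite S] {E : Type*} [AddCommGroup E]
    [Module (ZMod 2) E] [Finite E] (ρ : Representation (ZMod 2) S E) {ι : Type*}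
    (act : S → ι → ι)
    (hact1 : ∀ i, act 1 i = i) (hactmul : ∀ s t i, act (s * t) i = act s (act t i))
    (e : ι → Module.End (ZMod 2) E)
    (hequiv : ∀ s i, ρ s * e i = e (act s i) * ρ s)
    (P : Subgroup S) (hP : IsPGroup 2 P) (i : ι) (hi : e i ≠ 0) (hidem : e i * e i = e i)
    (h2fix : ∀ P' : Subgroup S, IsPGroup 2 P' → ∀ W : Submodule (ZMod 2) E,
      (∀ s ∈ P', ∀ w ∈ W, ρ s w ∈ W) → W ≠ ⊥ → ∃ w ∈ W, w ≠ 0 ∧ ∀ s ∈ P', ρ s w = w)
    (hlift : ∀ w : E, e i w = w → (∀ t ∈ P, act t i = i → ρ t w = w) →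
      ∃ v : E, (∀ s ∈ P, ρ s v = v) ∧ e i v = w ∧ ∀ j, e j v ≠ 0 → ∃ s ∈ P, act s i = j) :
    ∃ v : E, (∀ s ∈ P, ρ s v = v) ∧ e i v ≠ 0 ∧ ∀ j, e j v ≠ 0 → ∃ s ∈ P, act s i = j := by
  classical
  -- the stabilizer of `i` in `P`
  let Stab : Subgroup S :=
    { carrier := {t | t ∈ P ∧ act t i = i}
      mul_mem' := fun {a b} ha hb => ⟨P.mul_mem ha.1 hb.1, by
        show act (a * b) i = i
        rw [hactmul, hb.2, ha.2]⟩
      one_mem' := ⟨P.one_mem, hact1 i⟩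
      inv_mem' := fun {a} ha => ⟨P.inv_mem ha.1, by
        show act a⁻¹ i = i
        have h1 : act (a⁻¹ * a) i = i := by rw [inv_mul_cancel, hact1]
        rw [hactmul, ha.2] at h1
        exact h1⟩ }
  have hStabmem : ∀ t, t ∈ Stab ↔ t ∈ P ∧ act t i = i := fun t => Iff.rfl
  have hStabP : Stab ≤ P := fun t ht => ((hStabmem t).mp ht).1
  have hStab2 : IsPGroup 2 Stab := hP.to_le hStabP
  have hWinv : ∀ s ∈ Stab, ∀ w ∈ LinearMap.range (e i), ρ s w ∈ LinearMap.range (e i) := by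
    intro s hs w hw
    obtain ⟨u, rfl⟩ := hw
    have h1 : (ρ s * e i) u = (e (act s i) * ρ s) u := by rw [hequiv s i]
    rw [((hStabmem s).mp hs).2] at h1
    exact ⟨ρ s u, h1.symm⟩
  have hWne : LinearMap.range (e i) ≠ ⊥ := by
    intro h
    apply hi
    exact LinearMap.range_eq_bot.mp h
  obtain ⟨w, hwW, hw0, hwfix⟩ := h2fix Stab hStab2 (LinearMap.range (e i)) hWinv hWne
  have hew : e i w = w := by
    obtain ⟨u, rfl⟩ := hwW
    have h1 : (e i * e i) u = e i u := by rw [hidem]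
    exact h1
  obtain ⟨v, hv1, hv2, hv3⟩ :=
    hlift w hew (fun t ht hti => hwfix t ((hStabmem t).mpr ⟨ht, hti⟩))
  exact ⟨v, hv1, by rw [hv2]; exact hw0, hv3⟩

end Cfsg.Agent.Helper27.N14
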