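import Cfsg.Agent.Helper63.N14Defs

set_option autoImplicit false

/-!
# Piece G1 of S4414 (helper63's CALL): a 2-group fixes a nonzero vector of every nonzero
invariant subspace of a finite module over `ZMod 2`.
-/

namespace Cfsg.Agent.Helper27.N14

open Cfsg.Agent.Helper63.N14

/-- G1. A `2`-group acting on a nonzero invariant subspace of a finite `𝔽₂`-module fixes a
nonzero vector of it. -/
theorem two_group_fixed {S : Type*} [Group S] {E : Type*} [AddCommGroup E] [Module (ZMod 2) E]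
    [Finite E] (ρ : Representation (ZMod 2) S E) (P : Subgroup S) (hP : IsPGroup 2 P)
    (W : Submodule (ZMod 2) E) (hW : ∀ s ∈ P, ∀ w ∈ W, ρ s w ∈ W) (hne : W ≠ ⊥) :
    ∃ w ∈ W, w ≠ 0 ∧ ∀ s ∈ P, ρ s w = w := by
  classical
  have h20 : (2 : ZMod 2) = 0 := by decide
  have : Fact (Nat.Prime 2) := ⟨Nat.prime_two⟩
  let _ : MulAction ↥P ↥W :=
    { smul := fun s w => ⟨ρ (s : S) (w : E), hW s s.2 w w.2⟩
      one_smul := fun w => by
        apply Subtype.ext
        show ρ ((1 : ↥P) : S) (w : E) = w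
        simp
      mul_smul := fun s t w => by
        apply Subtype.ext
        show ρ ((s * t : ↥P) : S) (w : E) = ρ (s : S) (ρ (t : S) (w : E))
        simp [map_mul] }
  have hsmul : ∀ (s : ↥P) (w : ↥W), ((s • w : ↥W) : E) = ρ (s : S) (w : E) := fun _ _ => rfl
  -- 2 divides the cardinality of W
  obtain ⟨w₀, hw₀W, hw₀⟩ := (Submodule.ne_bot_iff W).mp hne
  have h2 : 2 ∣ Nat.card ↥W := by
    have h1 : addOrderOf (⟨w₀, hw₀W⟩ : ↥W) = 2 := by
      apply addOrderOf_eq_prime
      · apply Subtype.ext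
        show (2 : ℕ) • w₀ = 0
        rw [two_nsmul, ← two_smul (ZMod 2) w₀]
        rw [h20, zero_smul]
      · intro h
        exact hw₀ (congrArg Subtype.val h)
    have h3 := addOrderOf_dvd_natCard (⟨w₀, hw₀W⟩ : ↥W)
    rw [h1] at h3
    exact h3
  have h0 : (0 : ↥W) ∈ MulAction.fixedPoints ↥P ↥W := by
    intro s
    apply Subtype.ext
    rw [hsmul]
    simp
  obtain ⟨b, hb, hb0⟩ :=
    hP.exists_fixed_point_of_prime_dvd_card_of_fixed_point (↥W) h2 h0
  refine ⟨(b : E), b.2, ?_, ?_⟩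
  · intro h
    apply hb0
    exact (Subtype.ext h).symm
  · intro s hs
    have h1 := hb ⟨s, hs⟩
    have h2 := congrArg (Subtype.val : ↥W → E) h1
    rw [hsmul] at h2
    exact h2

end Cfsg.Agent.Helper27.N14
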