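import Mathlib
import Cfsg.Agent.Helper60.NCDefs
import Cfsg.Agent.Helper47.NCSYLCONJ
import Cfsg.Agent.Helper5.NCUNION
import Cfsg.Agent.Helper10.NCSYLCENT
import Cfsg.Agent.Helper10.NCSYLN

/-!
# S4135 piece CASEI (helper27, double): the case `r ∤ m` - `N` is abelian.
-/

set_option autoImplicit false
open Subgroup

namespace Cfsg.Agent.Helper27.NCCASEI
open Cfsg.Agent.Helper60.NC
open Cfsg.Agent.Helper47.NCSYLCONJ Cfsg.Agent.Helper5.NCUNION Cfsg.Agent.Helper10.NCSYLCENT
open Cfsg.Agent.Helper10.NCSYLN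

variable {G : Type*} [Group G] [Finite G] {r : ℕ} [Fact r.Prime] {N : Subgroup G} {m : ℕ}

/-- CASEI (level 2: uses SYLCENT SYLN UNION SYLCONJ) -/
theorem case_i (hc : Ctx G r N m) (R : Sylow r G) (hRN : (R : Subgroup G) ≤ N)
    (hR : ¬ (R : Subgroup G) ≤ center G) (hrm : ¬ r ∣ m) : Group.IsNilpotent N := by
  have hnN := hc.nN
  -- step 1: `N ≤ C(R)`
  have hNL : N ≤ N ⊓ centralizer ((R : Subgroup G) : Set G) := by
    apply union_conj _ N inf_le_left
    intro v hv
    by_cases hvZ : v ∈ center G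
    · refine ⟨1, N.one_mem, ?_⟩
      rw [one_mul, inv_one, mul_one]
      refine ⟨hv, mem_centralizer_iff.2 ?_⟩
      intro g _
      exact (mem_center_iff.1 hvZ g)
    · have hidx : (centralizer ({v} : Set G)).index = m := hc.index_eq hv hvZ
      obtain ⟨a, ha⟩ := syl_cent R (centralizer ({v} : Set G)) (by rw [hidx]; exact hrm)
      obtain ⟨n, hn, hn2⟩ := syl_n R N hRN a
      refine ⟨n, hn, ?_, mem_centralizer_iff.2 ?_⟩
      · exact hc.nN.conj_mem v hv n
      · intro g hg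
        obtain ⟨g', hg', e⟩ := hn2 g hg
        have h1 : n⁻¹ * g * n ∈ centralizer ({v} : Set G) := by rw [e]; exact ha g' hg'
        have h2 : (n⁻¹ * g * n) * v = v * (n⁻¹ * g * n) := mem_centralizer_singleton_iff.1 h1
        calc g * (n * v * n⁻¹) = n * ((n⁻¹ * g * n) * v) * n⁻¹ := by group
          _ = n * (v * (n⁻¹ * g * n)) * n⁻¹ := by rw [h2]
          _ = (n * v * n⁻¹) * g := by group
  have hcen : ∀ c ∈ N, ∀ g ∈ (R : Subgroup G), g * c = c * g := by
    intro c hcN g hg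
    exact (mem_centralizer_iff.1 (hNL hcN).2 g hg)
  -- a non-central `x ∈ R`
  obtain ⟨x, hxR, hxZ⟩ := SetLike.not_le_iff_exists.1 hR
  have hxN : x ∈ N := hRN hxR
  have hxr : ∃ k : ℕ, x ^ r ^ k = 1 := by
    obtain ⟨k, hk⟩ := R.isPGroup' ⟨x, hxR⟩
    exact ⟨k, congrArg Subtype.val hk⟩
  -- `N` is abelian
  have hab : ∀ c ∈ N, ∀ d ∈ N, c * d = d * c := by
    intro c hcN d hdN
    obtain ⟨a, b, ha, hb, hab, har, hbr⟩ := split_r r c
    have hzle : zpowers c ≤ N := zpowers_le.2 hcN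
    have hbN := hzle hb
    have hT : IsPGroup r (zpowers a) := by
      obtain ⟨k, hk⟩ := har
      intro ⟨z, hz⟩
      refine ⟨k, ?_⟩
      obtain ⟨i, rfl⟩ := mem_zpowers_iff.1 hz
      apply Subtype.ext
      show (a ^ i) ^ r ^ k = 1
      rw [← zpow_natCast, ← zpow_mul, mul_comm, zpow_mul, zpow_natCast, hk, one_zpow]
    obtain ⟨t, ht⟩ := syl_conj R (zpowers a) hT
    have h1 : t⁻¹ * a * t ∈ (R : Subgroup G) := ht a (mem_zpowers a)
    have h2 : t⁻¹ * d * t ∈ N := by
      have h0 := hc.nN.conj_mem d hdN t⁻¹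
      rwa [inv_inv] at h0
    have h3 := hcen _ h2 _ h1
    have hda : a * d = d * a := by
      calc a * d = t * ((t⁻¹ * a * t) * (t⁻¹ * d * t)) * t⁻¹ := by group
        _ = t * ((t⁻¹ * d * t) * (t⁻¹ * a * t)) * t⁻¹ := by rw [h3]
        _ = d * a := by group
    have h4 : centralizer ({x} : Set G) ≤ centralizer ({b} : Set G) := by
      apply hc.cop hxN hxZ hbN
      · exact (hcen b hbN x hxR)
      · exact orderOf_coprime_of_pow Fact.out hxr hbr
    have h5 : d ∈ centralizer ({x} : Set G) := by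
      rw [mem_centralizer_singleton_iff]
      exact (hcen d hdN x hxR).symm
    have hdb : b * d = d * b := (mem_centralizer_singleton_iff.1 (h4 h5)).symm
    rw [← hab, mul_assoc, hdb, ← mul_assoc, hda, mul_assoc]
  refine ⟨⟨1, ?_⟩⟩
  rw [Subgroup.upperCentralSeries_one, eq_top_iff]
  intro c _
  rw [mem_center_iff]
  intro d
  exact Subtype.ext (hab d d.2 c c.2)

end Cfsg.Agent.Helper27.NCCASEI
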